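import Mathlib

set_option autoImplicit false

namespace Cfsg.Agent.Lib.Helper2.Klein

open scoped Pointwise

variable {G : Type*} [Group G] [Finite G]

/-- A `p`-element normalizing a Sylow `p`-subgroup lies in it. -/
theorem mem_of_mem_normalizer {p : ℕ} [Fact p.Prime] (P : Sylow p G) (u : G)
    (hu : u ∈ Subgroup.normalizer ((P : Subgroup G) : Set G)) (k : ℕ) (hk : u ^ (p ^ k) = 1) :
    u ∈ (P : Subgroup G) := by
  have hz : IsPGroup p (Subgroup.zpowers u) := by
    rintro ⟨x, hx⟩
    obtain ⟨j, rfl⟩ := Subgroup.mem_zpowers_iff.mp hx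
    refine ⟨k, Subtype.ext ?_⟩
    simp only [Subgroup.coe_pow, Subgroup.coe_one]
    rw [← zpow_natCast, ← zpow_mul, mul_comm, zpow_mul, zpow_natCast, hk, one_zpow]
  have hsup := IsPGroup.to_sup_of_normal_right' hz P.2 (by rw [Subgroup.zpowers_le]; exact hu)
  have := P.is_maximal' hsup le_sup_right
  rw [← this]
  exact (le_sup_left : Subgroup.zpowers u ≤ _) (Subgroup.mem_zpowers u)

theorem sq_eq_one (P : Subgroup G) (hP : IsKleinFour P) (x : G) (hx : x ∈ P) : x * x = 1 := by
  have := hP
  exact congrArg Subtype.val (IsKleinFour.mul_self (⟨x, hx⟩ : ↥P))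

theorem comm (P : Subgroup G) (hP : IsKleinFour P) (x y : G) (hx : x ∈ P) (hy : y ∈ P) :
    x * y = y * x := by
  have := hP
  have := (IsKleinFour.isMulCommutative (G := ↥P)).is_comm.comm ⟨x, hx⟩ ⟨y, hy⟩
  exact congrArg Subtype.val this

theorem all4 (P : Subgroup G) (hP : IsKleinFour P) (x y : G) (hx : x ∈ P) (hy : y ∈ P)
    (hx1 : x ≠ 1) (hy1 : y ≠ 1) (hxy : x ≠ y) (w : G) (hw : w ∈ P) :
    w = 1 ∨ w = x ∨ w = y ∨ w = x * y := by
  have := hP
  by_cases h1 : w = 1
  · exact Or.inl h1
  by_cases h2 : w = x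
  · exact Or.inr (Or.inl h2)
  by_cases h3 : w = y
  · exact Or.inr (Or.inr (Or.inl h3))
  right; right; right
  have := IsKleinFour.eq_mul_of_ne_all (G := ↥P) (x := ⟨x, hx⟩) (y := ⟨y, hy⟩) (z := ⟨w, hw⟩)
    (fun h => hx1 (congrArg Subtype.val h)) (fun h => hy1 (congrArg Subtype.val h))
    (fun h => hxy (congrArg Subtype.val h)) (fun h => h1 (congrArg Subtype.val h))
    (fun h => h2 (congrArg Subtype.val h)) (fun h => h3 (congrArg Subtype.val h))
  exact congrArg Subtype.val this

/-- Fusion in a Klein four Sylow 2-subgroup: if two of the involutions are conjugate, all three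
are. -/
theorem fusion (P : Sylow 2 G) (hP : IsKleinFour (P : Subgroup G)) (x y : G)
    (hx : x ∈ (P : Subgroup G)) (hy : y ∈ (P : Subgroup G)) (hx1 : x ≠ 1) (hy1 : y ≠ 1)
    (hxy : x ≠ y) (hc : IsConj x y) : IsConj x (x * y) := by
  by_contra hn
  have : Fact (Nat.Prime 2) := ⟨Nat.prime_two⟩
  have : IsMulCommutative ↥P := by
    have := hP
    exact IsKleinFour.isMulCommutative (G := ↥(P : Subgroup G))
  have hsq := sq_eq_one (P : Subgroup G) hP
  have hcomm := comm (P : Subgroup G) hP
  have hz : x * y ∈ (P : Subgroup G) := Subgroup.mul_mem _ hx hy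
  obtain ⟨g, hg⟩ := isConj_iff.mp hc
  obtain ⟨n, hn', hne⟩ := P.conj_eq_normalizer_conj_of_mem x g⁻¹ hx (by
    rw [inv_inv, hg]; exact hy)
  rw [inv_inv, hg] at hne
  -- m = n⁻¹ normalizes P and conjugates x to y
  have hm : n⁻¹ ∈ Subgroup.normalizer ((P : Subgroup G) : Set G) := Subgroup.inv_mem _ hn'
  have hmx : n⁻¹ * x * n⁻¹⁻¹ = y := by rw [inv_inv]; exact hne.symm
  generalize n⁻¹ = m at hm hmx
  have hmz : m * (x * y) * m⁻¹ ∈ (P : Subgroup G) := (Subgroup.mem_normalizer_iff.mp hm _).mp hz
  have hmz' : m * (x * y) * m⁻¹ = x * y := by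
    rcases all4 (P : Subgroup G) hP x y hx hy hx1 hy1 hxy _ hmz with h | h | h | h
    · exfalso
      have h1 : x * y = 1 := by
        calc x * y = m⁻¹ * (m * (x * y) * m⁻¹) * m := by group
          _ = 1 := by rw [h]; group
      apply hxy
      calc x = x * (y * y) := by rw [hsq y hy, mul_one]
        _ = (x * y) * y := by group
        _ = y := by rw [h1, one_mul]
    · exfalso
      exact hn (isConj_iff.mpr ⟨m, h⟩).symm
    · exfalso
      have h1 : x * y = x := by
        calc x * y = m⁻¹ * (m * (x * y) * m⁻¹) * m := by group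
          _ = m⁻¹ * (m * x * m⁻¹) * m := by rw [h, hmx]
          _ = x := by group
      exact hy1 (mul_left_cancel (h1.trans (mul_one x).symm))
    · exact h
  have hmy : m * y * m⁻¹ = x := by
    have e1 : y = x * (x * y) := by rw [← mul_assoc, hsq x hx, one_mul]
    calc m * y * m⁻¹ = m * (x * (x * y)) * m⁻¹ := by rw [← e1]
      _ = (m * x * m⁻¹) * (m * (x * y) * m⁻¹) := by group
      _ = y * (x * y) := by rw [hmx, hmz']
      _ = y * (y * x) := by rw [hcomm x y hx hy]
      _ = x := by rw [← mul_assoc, hsq y hy, one_mul]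
  -- odd powers of m swap x and y
  have hodd : ∀ i : ℕ, m ^ (2 * i + 1) * x * (m ^ (2 * i + 1))⁻¹ = y := by
    intro i
    induction i with
    | zero => simpa using hmx
    | succ i ih =>
      have e : m ^ (2 * (i + 1) + 1) * x * (m ^ (2 * (i + 1) + 1))⁻¹
          = m * (m * (m ^ (2 * i + 1) * x * (m ^ (2 * i + 1))⁻¹) * m⁻¹) * m⁻¹ := by
        have : 2 * (i + 1) + 1 = (2 * i + 1) + 1 + 1 := by ring
        rw [this, pow_succ' m ((2 * i + 1) + 1), pow_succ' m (2 * i + 1)]
        group
      rw [e, ih, hmy, hmx]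
  obtain ⟨k, j, hj, hord⟩ := Nat.exists_eq_two_pow_mul_odd (orderOf_pos m).ne'
  obtain ⟨i, hi⟩ := hj
  have hu : m ^ j ∈ (P : Subgroup G) := by
    apply mem_of_mem_normalizer P (m ^ j) (Subgroup.pow_mem _ hm j) k
    rw [← pow_mul, mul_comm, ← hord, pow_orderOf_eq_one]
  have h1 := hodd i
  rw [← hi] at h1
  have h2 : m ^ j * x * (m ^ j)⁻¹ = x := by
    rw [hcomm _ _ hu hx, mul_inv_cancel_right]
  exact hxy (h2.symm.trans h1)

theorem conj_mem_of_involution (P : Sylow 2 G) (t : G) (ht : orderOf t = 2) :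
    ∃ g : G, g⁻¹ * t * g ∈ (P : Subgroup G) := by
  have : Fact (Nat.Prime 2) := ⟨Nat.prime_two⟩
  have hp : IsPGroup 2 (Subgroup.zpowers t) := by
    apply IsPGroup.of_card (n := 1)
    rw [Nat.card_zpowers, ht]; rfl
  obtain ⟨R, hR⟩ := hp.exists_le_sylow
  obtain ⟨g, hg⟩ := MulAction.exists_smul_eq G P R
  refine ⟨g, ?_⟩
  have h1 : t ∈ (g • P : Sylow 2 G) := by rw [hg]; exact hR (Subgroup.mem_zpowers t)
  have h2 : t ∈ MulAut.conj g • (P : Subgroup G) := h1
  rw [Subgroup.mem_pointwise_smul_iff_inv_smul_mem] at h2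
  simpa [MulAut.smul_def, ← map_inv, MulAut.conj_apply] using h2

theorem orderOf_two_of (P : Subgroup G) (hP : IsKleinFour P) (x : G) (hx : x ∈ P) (hx1 : x ≠ 1) :
    orderOf x = 2 := by
  apply orderOf_eq_prime
  · rw [pow_two]; exact sq_eq_one P hP x hx
  · exact hx1

/-- The dichotomy: a group with Klein four Sylow 2-subgroup has either one class of involutions,
or three and then no two distinct elements of the Sylow subgroup are conjugate. -/
theorem card_classes (P : Sylow 2 G) (hP : IsKleinFour (P : Subgroup G)) :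
    ∃ a b : G, a ∈ (P : Subgroup G) ∧ b ∈ (P : Subgroup G) ∧ a ≠ b ∧
      ((IsConj a b ∧
        Nat.card {C : ConjClasses G // ∃ t : G, orderOf t = 2 ∧ ConjClasses.mk t = C} = 1) ∨
      ((∀ x ∈ (P : Subgroup G), ∀ y ∈ (P : Subgroup G), IsConj x y → x = y) ∧
        Nat.card {C : ConjClasses G // ∃ t : G, orderOf t = 2 ∧ ConjClasses.mk t = C} = 3)) := by
  have hsq := sq_eq_one (P : Subgroup G) hP
  have hcomm := comm (P : Subgroup G) hP
  have hcard : Nat.card ↥(P : Subgroup G) = 4 := hP.card_four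
  -- two distinct involutions
  have hnt : Nontrivial ↥(P : Subgroup G) := by
    rw [← Finite.one_lt_card_iff_nontrivial, hcard]; norm_num
  obtain ⟨⟨a, ha⟩, ha'⟩ := exists_ne (1 : ↥(P : Subgroup G))
  have ha1 : a ≠ 1 := fun h => ha' (Subtype.ext h)
  have hao := orderOf_two_of (P : Subgroup G) hP a ha ha1
  obtain ⟨b, hb, hbz⟩ : ∃ b ∈ (P : Subgroup G), b ∉ Subgroup.zpowers a := by
    by_contra hall
    push Not at hall
    have hle : (P : Subgroup G) ≤ Subgroup.zpowers a := hall
    have h1 := Subgroup.card_le_of_le hle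
    rw [Nat.card_zpowers, hao, hcard] at h1
    omega
  have hb1 : b ≠ 1 := fun h => hbz (h ▸ Subgroup.one_mem _)
  have hab : a ≠ b := fun h => hbz (h ▸ Subgroup.mem_zpowers _)
  have hbo := orderOf_two_of (P : Subgroup G) hP b hb hb1
  have hc : a * b ∈ (P : Subgroup G) := Subgroup.mul_mem _ ha hb
  have hc1 : a * b ≠ 1 := by
    intro h
    apply hab
    calc a = a * (b * b) := by rw [hsq b hb, mul_one]
      _ = (a * b) * b := by group
      _ = b := by rw [h, one_mul]
  have hca : a * b ≠ a := fun h => hb1 (mul_left_cancel (h.trans (mul_one a).symm))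
  have hcb : a * b ≠ b := fun h => ha1 (mul_right_cancel (h.trans (one_mul b).symm))
  have hco := orderOf_two_of (P : Subgroup G) hP (a * b) hc hc1
  have h4 := all4 (P : Subgroup G) hP a b ha hb ha1 hb1 hab
  -- the set of classes
  have hS : {C : ConjClasses G | ∃ t : G, orderOf t = 2 ∧ ConjClasses.mk t = C}
      = {ConjClasses.mk a, ConjClasses.mk b, ConjClasses.mk (a * b)} := by
    ext C
    simp only [Set.mem_setOf_eq, Set.mem_insert_iff, Set.mem_singleton_iff]
    constructor
    · rintro ⟨t, ht, rfl⟩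
      obtain ⟨g, hg⟩ := conj_mem_of_involution P t ht
      have hconj : IsConj t (g⁻¹ * t * g) := isConj_iff.mpr ⟨g⁻¹, by group⟩
      have hne1 : g⁻¹ * t * g ≠ 1 := by
        intro h
        have : t = 1 := by
          calc t = g * (g⁻¹ * t * g) * g⁻¹ := by group
            _ = 1 := by rw [h]; group
        rw [this, orderOf_one] at ht
        omega
      rcases h4 _ hg with h | h | h | h
      · exact absurd h hne1
      · left; rw [← h]; exact ConjClasses.mk_eq_mk_iff_isConj.mpr hconj
      · right; left; rw [← h]; exact ConjClasses.mk_eq_mk_iff_isConj.mpr hconj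
      · right; right; rw [← h]; exact ConjClasses.mk_eq_mk_iff_isConj.mpr hconj
    · rintro (h | h | h)
      · exact ⟨a, hao, h.symm⟩
      · exact ⟨b, hbo, h.symm⟩
      · exact ⟨a * b, hco, h.symm⟩
  have hcardS : Nat.card {C : ConjClasses G // ∃ t : G, orderOf t = 2 ∧ ConjClasses.mk t = C}
      = Set.ncard ({ConjClasses.mk a, ConjClasses.mk b, ConjClasses.mk (a * b)} : Set (ConjClasses G)) := by
    rw [← hS]
    exact Nat.card_coe_set_eq _
  refine ⟨a, b, ha, hb, hab, ?_⟩
  by_cases hconj : IsConj a b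
  · left
    refine ⟨hconj, ?_⟩
    have h2 := fusion P hP a b ha hb ha1 hb1 hab hconj
    rw [hcardS, ← ConjClasses.mk_eq_mk_iff_isConj.mpr hconj, ← ConjClasses.mk_eq_mk_iff_isConj.mpr h2]
    simp
  · right
    have hac : ¬ IsConj a (a * b) := by
      intro h
      have := fusion P hP a (a * b) ha hc ha1 hc1 (Ne.symm hca) h
      rw [← mul_assoc, hsq a ha, one_mul] at this
      exact hconj this
    have hbc : ¬ IsConj b (a * b) := by
      intro h
      have := fusion P hP b (a * b) hb hc hb1 hc1 (Ne.symm hcb) h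
      rw [hcomm a b ha hb, ← mul_assoc, hsq b hb, one_mul] at this
      exact hconj this.symm
    constructor
    · intro x hx y hy hxyc
      by_contra hne
      have hx1 : x ≠ 1 := by
        intro h
        rw [h] at hxyc hne
        exact hne (isConj_one_right.mp hxyc).symm
      have hy1 : y ≠ 1 := by
        intro h
        rw [h] at hxyc hne
        exact hne (isConj_one_left.mp hxyc)
      have hf := fusion P hP x y hx hy hx1 hy1 hne hxyc
      have h4' := all4 (P : Subgroup G) hP x y hx hy hx1 hy1 hne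
      have hxa : IsConj x a := by
        rcases h4' a ha with h | h | h | h
        · exact absurd h ha1
        · rw [h]
        · rw [h]; exact hxyc
        · rw [h]; exact hf
      have hxb : IsConj x b := by
        rcases h4' b hb with h | h | h | h
        · exact absurd h hb1
        · rw [h]
        · rw [h]; exact hxyc
        · rw [h]; exact hf
      exact hconj (hxa.symm.trans hxb)
    · rw [hcardS]
      apply Set.ncard_eq_three.mpr
      refine ⟨_, _, _, ?_, ?_, ?_, rfl⟩
      · exact fun h => hconj (ConjClasses.mk_eq_mk_iff_isConj.mp h)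
      · exact fun h => hac (ConjClasses.mk_eq_mk_iff_isConj.mp h)
      · exact fun h => hbc (ConjClasses.mk_eq_mk_iff_isConj.mp h)

end Cfsg.Agent.Lib.Helper2.Klein
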