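import Mathlib

set_option autoImplicit false

namespace Cfsg.Agent.Lib.Helper2.L27Abs

/-! ### Counting elements by order from class data -/

variable {G : Type*} [Group G] [Finite G]

theorem card_conj_mul (h : G) :
    Nat.card {x : G // IsConj h x} * Nat.card (Subgroup.centralizer ({h} : Set G)) =
      Nat.card G := by
  classical
  have := Fintype.ofFinite G
  have h1 := MulAction.card_orbit_mul_card_stabilizer_eq_card_group (ConjAct G) h
  rw [Subgroup.nat_card_centralizer_nat_card_stabilizer]
  have h2 : Nat.card {x : G // IsConj h x} = Fintype.card (MulAction.orbit (ConjAct G) h) := by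
    rw [← Nat.card_eq_fintype_card]
    apply Nat.card_congr
    exact Equiv.subtypeEquivRight (fun x => isConj_comm.trans ConjAct.mem_orbit_conjAct.symm)
  rw [h2, Nat.card_eq_fintype_card, h1]
  rw [← Nat.card_eq_fintype_card]
  rfl

omit [Finite G] in
theorem centralizer_eq_zpowers {a : G} (hc : ∀ c : G, c * a = a * c → c ∈ Subgroup.zpowers a) :
    Subgroup.centralizer ({a} : Set G) = Subgroup.zpowers a := by
  apply le_antisymm
  · intro c hc'
    rw [Subgroup.mem_centralizer_singleton_iff] at hc'
    exact hc c hc'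
  · rw [Subgroup.zpowers_le]
    exact Subgroup.mem_centralizer_singleton_iff.mpr rfl

theorem card_class {a : G} {n : ℕ} (hn : orderOf a = n)
    (hc : ∀ c : G, c * a = a * c → c ∈ Subgroup.zpowers a) :
    Nat.card {x : G // IsConj a x} * n = Nat.card G := by
  have h := card_conj_mul a
  rwa [centralizer_eq_zpowers hc, Nat.card_zpowers, hn] at h

omit [Finite G] in
theorem orderOf_of_isConj {a b : G} (h : IsConj a b) : orderOf b = orderOf a := by
  obtain ⟨c, hc⟩ := isConj_iff.mp h
  rw [← hc]
  exact MulEquiv.orderOf_eq (MulAut.conj c) a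

omit [Finite G] in
theorem card_order_eq_class {a : G} {n : ℕ} (ha : orderOf a = n)
    (hconj : ∀ t : G, orderOf t = n → IsConj a t) :
    Nat.card {g : G // orderOf g = n} = Nat.card {g : G // IsConj a g} :=
  Nat.card_congr (Equiv.subtypeEquivRight
    (fun g => ⟨fun h => hconj g h, fun h => (orderOf_of_isConj h).trans ha⟩))

theorem card_by_order
    (hord : ∀ g : G, orderOf g = 1 ∨ orderOf g = 2 ∨ orderOf g = 3 ∨ orderOf g = 4 ∨
      orderOf g = 7) :
    Nat.card G = 1 + Nat.card {g : G // orderOf g = 2} + Nat.card {g : G // orderOf g = 3}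
      + Nat.card {g : G // orderOf g = 4} + Nat.card {g : G // orderOf g = 7} := by
  classical
  haveI := Fintype.ofFinite G
  have key := Finset.card_eq_sum_card_fiberwise (f := fun g : G => orderOf g)
    (s := Finset.univ) (t := ({1, 2, 3, 4, 7} : Finset ℕ)) (fun g _ => by
      simp only [Finset.coe_insert, Finset.coe_singleton, Set.mem_insert_iff,
        Set.mem_singleton_iff]
      exact hord g)
  have hc : ∀ n : ℕ, (Finset.univ.filter (fun g : G => orderOf g = n)).card
      = Nat.card {g : G // orderOf g = n} := by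
    intro n
    rw [Nat.card_eq_fintype_card, Fintype.card_subtype]
  have h1 : Nat.card {g : G // orderOf g = 1} = 1 := by
    haveI : Unique {g : G // orderOf g = 1} :=
      ⟨⟨⟨1, orderOf_one⟩⟩, fun g => Subtype.ext (orderOf_eq_one_iff.mp g.2)⟩
    exact Nat.card_unique
  rw [Nat.card_eq_fintype_card, ← Finset.card_univ, key]
  rw [Finset.sum_insert (by decide), Finset.sum_insert (by decide), Finset.sum_insert (by decide),
    Finset.sum_insert (by decide), Finset.sum_singleton, hc, hc, hc, hc, hc, h1]
  omega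

/-- The counts of elements of each order, from the class data. -/
theorem counts (h : Nat.card G = 168)
    (hord : ∀ g : G, orderOf g = 1 ∨ orderOf g = 2 ∨ orderOf g = 3 ∨ orderOf g = 4 ∨
      orderOf g = 7)
    (hc3 : ∀ s t : G, orderOf s = 3 → orderOf t = 3 → IsConj s t)
    (hc4 : ∀ s t : G, orderOf s = 4 → orderOf t = 4 → IsConj s t)
    (hcent : ∀ a c : G, (orderOf a = 3 ∨ orderOf a = 4 ∨ orderOf a = 7) → c * a = a * c →
      c ∈ Subgroup.zpowers a)
    (hc7 : ∀ x y : G, orderOf x = 7 → orderOf y = 7 → IsConj x y ∨ IsConj x⁻¹ y)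
    (hnc7 : ∀ x : G, orderOf x = 7 → ¬ IsConj x x⁻¹)
    (h4 : ∃ g : G, orderOf g = 4) :
    Nat.card {g : G // orderOf g = 2} = 21 ∧ Nat.card {g : G // orderOf g = 3} = 56 ∧
      Nat.card {g : G // orderOf g = 4} = 42 ∧ Nat.card {g : G // orderOf g = 7} = 48 ∧
      ∀ x : G, orderOf x = 7 → Nat.card {g : G // IsConj x g} = 24 := by
  have e3 : Nat.card {g : G // orderOf g = 3} = 56 := by
    have : Fact (Nat.Prime 3) := ⟨by norm_num⟩
    obtain ⟨a, ha⟩ := exists_prime_orderOf_dvd_card' (G := G) 3 (by rw [h]; decide)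
    rw [card_order_eq_class ha (fun t ht => hc3 a t ha ht)]
    have h1 := card_class ha (fun c hc => hcent a c (Or.inl ha) hc)
    omega
  have e4 : Nat.card {g : G // orderOf g = 4} = 42 := by
    obtain ⟨a, ha⟩ := h4
    rw [card_order_eq_class ha (fun t ht => hc4 a t ha ht)]
    have h1 := card_class ha (fun c hc => hcent a c (Or.inr (Or.inl ha)) hc)
    omega
  have e7 : ∀ x : G, orderOf x = 7 → Nat.card {g : G // IsConj x g} = 24 := by
    intro x hx
    have h1 := card_class hx (fun c hc => hcent x c (Or.inr (Or.inr hx)) hc)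
    omega
  have e7' : Nat.card {g : G // orderOf g = 7} = 48 := by
    have : Fact (Nat.Prime 7) := ⟨by norm_num⟩
    obtain ⟨x, hx⟩ := exists_prime_orderOf_dvd_card' (G := G) 7 (by rw [h]; decide)
    have hx' : orderOf x⁻¹ = 7 := by rw [orderOf_inv]; exact hx
    have hA : Nat.card {g : G // IsConj x g} = ({g : G | IsConj x g} : Set G).ncard :=
      Nat.card_coe_set_eq _
    have hB : Nat.card {g : G // IsConj x⁻¹ g} = ({g : G | IsConj x⁻¹ g} : Set G).ncard :=
      Nat.card_coe_set_eq _
    have hS : Nat.card {g : G // orderOf g = 7} = ({g : G | orderOf g = 7} : Set G).ncard :=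
      Nat.card_coe_set_eq _
    have hU : ({g : G | orderOf g = 7} : Set G) = {g : G | IsConj x g} ∪ {g : G | IsConj x⁻¹ g} := by
      ext g
      constructor
      · intro hg
        exact hc7 x g hx hg
      · rintro (hg | hg)
        · exact (orderOf_of_isConj hg).trans hx
        · exact (orderOf_of_isConj hg).trans hx'
    have hD : Disjoint ({g : G | IsConj x g} : Set G) {g : G | IsConj x⁻¹ g} := by
      rw [Set.disjoint_left]
      intro g h1 h2
      exact hnc7 x hx (IsConj.trans h1 (IsConj.symm h2))
    rw [hS, hU, Set.ncard_union_eq hD (Set.toFinite _) (Set.toFinite _), ← hA, ← hB, e7 x hx,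
      e7 x⁻¹ hx']
  have e2 : Nat.card {g : G // orderOf g = 2} = 21 := by
    have h1 := card_by_order hord
    omega
  exact ⟨e2, e3, e4, e7', e7⟩

end Cfsg.Agent.Lib.Helper2.L27Abs
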