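import Mathlib
import Cfsg.Agent.Lib.Helper2.U33Emb

set_option autoImplicit false

namespace Cfsg.Agent.Lib.Helper2.L27Cls

open Cfsg.Agent.Lib.Helper2.U33Tab (mk9 d3 I9 SL32 mk9_eta d3_eq_det one_eq_I9)

/-- Matrices of size three over two elements, as functions. -/
abbrev M9 : Type := Fin 3 → Fin 3 → ZMod 2

/-- The product, written out. -/
def m2 (A B : M9) : M9 := fun i j => A i 0 * B 0 j + A i 1 * B 1 j + A i 2 * B 2 j

/-- Powers. -/
def pw (A : M9) : ℕ → M9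
  | 0 => I9
  | n + 1 => m2 A (pw A n)

/-- A statement about all matrices of determinant one. -/
def all9 (P : M9 → Prop) : Prop :=
  ∀ a b c d e f g h k : ZMod 2, d3 a b c d e f g h k = 1 → P (mk9 a b c d e f g h k)

instance (P : M9 → Prop) [DecidablePred P] : Decidable (all9 P) := by
  unfold all9
  infer_instance

/-- A statement about some matrix of determinant one. -/
def ex9 (P : M9 → Prop) : Prop :=
  ∃ a b c d e f g h k : ZMod 2, d3 a b c d e f g h k = 1 ∧ P (mk9 a b c d e f g h k)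

instance (P : M9 → Prop) [DecidablePred P] : Decidable (ex9 P) := by
  unfold ex9
  infer_instance

/-- An involution. -/
def R2 : M9 := mk9 1 1 0 0 1 0 0 0 1

/-- An element of order three. -/
def R3 : M9 := mk9 0 1 0 0 0 1 1 0 0

/-- An element of order four. -/
def R4 : M9 := mk9 1 1 0 0 1 1 0 0 1

/-- An element of order seven. -/
def R7 : M9 := mk9 0 0 1 1 0 1 0 1 0

/-- Its inverse. -/
def R7i : M9 := mk9 1 1 0 0 0 1 1 0 0

/-- The possible orders. -/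
def ordP (M : M9) : Prop :=
  M = I9 ∨ (M ≠ I9 ∧ pw M 2 = I9) ∨ (M ≠ I9 ∧ pw M 3 = I9) ∨ (pw M 2 ≠ I9 ∧ pw M 4 = I9) ∨
    (M ≠ I9 ∧ pw M 7 = I9)

instance : DecidablePred ordP := fun M => by
  unfold ordP
  infer_instance

theorem ord_cases : all9 ordP := by decide +kernel

theorem cent2 : ∀ a b c d e f g h k : ZMod 2, d3 a b c d e f g h k = 1 →
    m2 (mk9 a b c d e f g h k) R2 = m2 R2 (mk9 a b c d e f g h k) →
      mk9 a b c d e f g h k = mk9 1 b c 0 1 0 0 h 1 := by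
  decide +kernel

theorem cent2' : ∀ b c h : ZMod 2, d3 1 b c 0 1 0 0 h 1 = 1 ∧
    m2 (mk9 1 b c 0 1 0 0 h 1) R2 = m2 R2 (mk9 1 b c 0 1 0 0 h 1) := by
  decide +kernel

theorem R2_facts : d3 (1 : ZMod 2) 1 0 0 1 0 0 0 1 = 1 ∧ R2 ≠ I9 ∧ pw R2 2 = I9 := by
  decide +kernel

theorem R3_facts : d3 (0 : ZMod 2) 1 0 0 0 1 1 0 0 = 1 ∧ R3 ≠ I9 ∧ pw R3 3 = I9 := by
  decide +kernel

theorem R4_facts : d3 (1 : ZMod 2) 1 0 0 1 1 0 0 1 = 1 ∧ pw R4 2 ≠ I9 ∧ pw R4 4 = I9 := by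
  decide +kernel

theorem R7_facts : d3 (0 : ZMod 2) 0 1 1 0 1 0 1 0 = 1 ∧ R7 ≠ I9 ∧ pw R7 7 = I9 ∧
    d3 (1 : ZMod 2) 1 0 0 0 1 1 0 0 = 1 ∧ R7i ≠ I9 ∧ pw R7i 7 = I9 ∧ m2 R7 R7i = I9 := by
  decide +kernel

end Cfsg.Agent.Lib.Helper2.L27Cls
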