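import Mathlib
import Cfsg.Agent.Lib.Helper2.L27Cls

set_option autoImplicit false

namespace Cfsg.Agent.Lib.Helper2.L27Cls

open Cfsg.Agent.Lib.Helper2.U33Tab (mk9 d3 I9 SL32 mk9_eta d3_eq_det one_eq_I9)

theorem conj2 : all9 (fun M => M ≠ I9 → pw M 2 = I9 → ex9 (fun C => m2 C M = m2 R2 C)) := by
  decide +kernel

theorem conj3 : all9 (fun M => M ≠ I9 → pw M 3 = I9 → ex9 (fun C => m2 C M = m2 R3 C)) := by
  decide +kernel

theorem conj4 : all9 (fun M => pw M 2 ≠ I9 → pw M 4 = I9 → ex9 (fun C => m2 C M = m2 R4 C)) := by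
  decide +kernel

theorem conj7 : all9 (fun M => M ≠ I9 → pw M 7 = I9 →
    ex9 (fun C => m2 C M = m2 R7 C) ∨ ex9 (fun C => m2 C M = m2 R7i C)) := by
  decide +kernel

end Cfsg.Agent.Lib.Helper2.L27Cls
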