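import Mathlib
import Cfsg.Agent.Lib.Helper2.L27Cls

set_option autoImplicit false

namespace Cfsg.Agent.Lib.Helper2.L27Cls

open Cfsg.Agent.Lib.Helper2.U33Tab (mk9 d3 I9 SL32 mk9_eta d3_eq_det one_eq_I9)

/-- Membership in the powers of an element of order seven. -/
def inPow7 (M C : M9) : Prop :=
  C = I9 ∨ C = M ∨ C = pw M 2 ∨ C = pw M 3 ∨ C = pw M 4 ∨ C = pw M 5 ∨ C = pw M 6

instance (M C : M9) : Decidable (inPow7 M C) := by
  unfold inPow7
  infer_instance

theorem cent7 : all9 (fun M => M ≠ I9 → pw M 7 = I9 → all9 (fun C => m2 C M = m2 M C →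
    inPow7 M C)) := by
  decide +kernel

theorem nc7 : all9 (fun M => M ≠ I9 → pw M 7 = I9 → all9 (fun C => m2 M (m2 C M) ≠ C)) := by
  decide +kernel

end Cfsg.Agent.Lib.Helper2.L27Cls
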