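import Mathlib
import Cfsg.Agent.Lib.Helper2.L27Cls
import Cfsg.Agent.Lib.Helper2.L27ClsA
import Cfsg.Agent.Lib.Helper2.L27ClsB
import Cfsg.Agent.Lib.Helper2.L27ClsC

set_option autoImplicit false

namespace Cfsg.Agent.Lib.Helper2.L27Cls

open Cfsg.Agent.Lib.Helper2.U33Tab (mk9 d3 I9 SL32 mk9_eta d3_eq_det one_eq_I9)

/-! ### From the tables to the group of matrices -/

theorem coe_mul (A B : SL32) : ((A * B : SL32).1 : M9) = m2 A.1 B.1 := by
  funext i j
  show (A.1 * B.1) i j = A.1 i 0 * B.1 0 j + A.1 i 1 * B.1 1 j + A.1 i 2 * B.1 2 j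
  rw [Matrix.mul_apply, Fin.sum_univ_three]

theorem coe_pow (A : SL32) (n : ℕ) : ((A ^ n : SL32).1 : M9) = pw A.1 n := by
  induction n with
  | zero => rw [pow_zero]; exact one_eq_I9
  | succ n ih => rw [pow_succ', coe_mul, ih]; rfl

theorem eq_one_iff (A : SL32) : A = 1 ↔ (A.1 : M9) = I9 :=
  ⟨fun h => by rw [h]; exact one_eq_I9, fun h => Subtype.ext (h.trans one_eq_I9.symm)⟩

theorem eq_iff (A B : SL32) : A = B ↔ (A.1 : M9) = B.1 :=
  ⟨fun h => by rw [h], fun h => Subtype.ext h⟩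

theorem all9_elim {P : M9 → Prop} (h : all9 P) (A : SL32) : P A.1 := by
  have h1 := h (A.1 0 0) (A.1 0 1) (A.1 0 2) (A.1 1 0) (A.1 1 1) (A.1 1 2) (A.1 2 0) (A.1 2 1)
    (A.1 2 2) (by rw [d3_eq_det]; exact A.2)
  exact Eq.mp (congrArg P (mk9_eta (A.1 : M9))) h1

/-- A matrix of determinant one, from its entries. -/
def ofM (M : M9)
    (h : d3 (M 0 0) (M 0 1) (M 0 2) (M 1 0) (M 1 1) (M 1 2) (M 2 0) (M 2 1) (M 2 2) = 1) : SL32 :=
  ⟨Matrix.of M, by rw [← d3_eq_det]; exact h⟩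

theorem ex9_elim {P : M9 → Prop} (h : ex9 P) : ∃ C : SL32, P C.1 := by
  obtain ⟨a, b, c, d, e, f, g, h', k, hd, hP⟩ := h
  exact ⟨ofM (mk9 a b c d e f g h' k) hd, hP⟩

theorem orderOf_two {A : SL32} (h1 : (A.1 : M9) ≠ I9) (h2 : pw A.1 2 = I9) : orderOf A = 2 :=
  orderOf_eq_prime ((eq_one_iff _).mpr ((coe_pow A 2).trans h2))
    (fun h => h1 ((eq_one_iff _).mp h))

theorem orderOf_three {A : SL32} (h1 : (A.1 : M9) ≠ I9) (h2 : pw A.1 3 = I9) : orderOf A = 3 :=
  orderOf_eq_prime ((eq_one_iff _).mpr ((coe_pow A 3).trans h2))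
    (fun h => h1 ((eq_one_iff _).mp h))

theorem orderOf_seven {A : SL32} (h1 : (A.1 : M9) ≠ I9) (h2 : pw A.1 7 = I9) : orderOf A = 7 := by
  have : Fact (Nat.Prime 7) := ⟨by norm_num⟩
  exact orderOf_eq_prime ((eq_one_iff _).mpr ((coe_pow A 7).trans h2))
    (fun h => h1 ((eq_one_iff _).mp h))

theorem orderOf_four {A : SL32} (h1 : pw A.1 2 ≠ I9) (h2 : pw A.1 4 = I9) : orderOf A = 4 := by
  have ha : ¬ A ^ 2 ^ 1 = 1 := by
    rw [pow_one]
    intro h
    exact h1 ((coe_pow A 2).symm.trans ((eq_one_iff _).mp h))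
  have hb : A ^ 2 ^ (1 + 1) = 1 := (eq_one_iff _).mpr ((coe_pow A 4).trans h2)
  exact orderOf_eq_prime_pow ha hb

theorem ne_of_orderOf {A : SL32} {n : ℕ} (hn : orderOf A = n) (h1 : n ≠ 1) :
    (A.1 : M9) ≠ I9 := by
  intro h
  rw [(eq_one_iff A).mpr h, orderOf_one] at hn
  exact h1 hn.symm

theorem pw_of_orderOf {A : SL32} {n : ℕ} (hn : orderOf A = n) : pw A.1 n = I9 := by
  rw [← coe_pow, ← hn, pow_orderOf_eq_one]
  exact one_eq_I9

theorem sq_ne_of_orderOf {A : SL32} (hn : orderOf A = 4) : pw A.1 2 ≠ I9 := by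
  intro h
  have h2 : A ^ 2 = 1 := (eq_one_iff _).mpr ((coe_pow A 2).trans h)
  have h3 := orderOf_dvd_of_pow_eq_one h2
  rw [hn] at h3
  exact absurd h3 (by decide)

theorem orderOf_cases (A : SL32) :
    orderOf A = 1 ∨ orderOf A = 2 ∨ orderOf A = 3 ∨ orderOf A = 4 ∨ orderOf A = 7 := by
  have h0 : ordP A.1 := all9_elim ord_cases A
  unfold ordP at h0
  rcases h0 with h | ⟨h1, h2⟩ | ⟨h1, h2⟩ | ⟨h1, h2⟩ | ⟨h1, h2⟩
  · left; rw [(eq_one_iff A).mpr h, orderOf_one]
  · right; left; exact orderOf_two h1 h2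
  · right; right; left; exact orderOf_three h1 h2
  · right; right; right; left; exact orderOf_four h1 h2
  · right; right; right; right; exact orderOf_seven h1 h2

/-- The representative of order two. -/
def r2 : SL32 := ofM R2 R2_facts.1

/-- The representative of order three. -/
def r3 : SL32 := ofM R3 R3_facts.1

/-- The representative of order four. -/
def r4 : SL32 := ofM R4 R4_facts.1

/-- The representative of order seven. -/
def r7 : SL32 := ofM R7 R7_facts.1

/-- The other representative of order seven. -/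
def r7i : SL32 := ofM R7i R7_facts.2.2.2.1

theorem orderOf_r2 : orderOf r2 = 2 := orderOf_two R2_facts.2.1 R2_facts.2.2

theorem orderOf_r3 : orderOf r3 = 3 := orderOf_three R3_facts.2.1 R3_facts.2.2

theorem orderOf_r4 : orderOf r4 = 4 := orderOf_four R4_facts.2.1 R4_facts.2.2

theorem orderOf_r7 : orderOf r7 = 7 := orderOf_seven R7_facts.2.1 R7_facts.2.2.1

theorem r7i_eq : r7i = r7⁻¹ :=
  eq_inv_of_mul_eq_one_right ((eq_one_iff _).mpr ((coe_mul r7 r7i).trans R7_facts.2.2.2.2.2.2))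

theorem isConj_of_eq {A B C : SL32} (h : m2 C.1 A.1 = m2 B.1 C.1) : IsConj A B := by
  rw [isConj_iff]
  refine ⟨C, ?_⟩
  have h' : C * A = B * C :=
    (eq_iff _ _).mpr ((coe_mul C A).trans (h.trans (coe_mul B C).symm))
  rw [h', mul_inv_cancel_right]

theorem conj_two {A : SL32} (h : orderOf A = 2) : IsConj A r2 := by
  obtain ⟨C, hC⟩ := ex9_elim (all9_elim conj2 A (ne_of_orderOf h (by decide)) (pw_of_orderOf h))
  exact isConj_of_eq hC

theorem conj_three {A : SL32} (h : orderOf A = 3) : IsConj A r3 := by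
  obtain ⟨C, hC⟩ := ex9_elim (all9_elim conj3 A (ne_of_orderOf h (by decide)) (pw_of_orderOf h))
  exact isConj_of_eq hC

theorem conj_four {A : SL32} (h : orderOf A = 4) : IsConj A r4 := by
  obtain ⟨C, hC⟩ := ex9_elim (all9_elim conj4 A (sq_ne_of_orderOf h) (pw_of_orderOf h))
  exact isConj_of_eq hC

theorem conj_seven {A : SL32} (h : orderOf A = 7) : IsConj A r7 ∨ IsConj A r7i := by
  rcases all9_elim conj7 A (ne_of_orderOf h (by decide)) (pw_of_orderOf h) with h1 | h1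
  · obtain ⟨C, hC⟩ := ex9_elim h1
    exact Or.inl (isConj_of_eq hC)
  · obtain ⟨C, hC⟩ := ex9_elim h1
    exact Or.inr (isConj_of_eq hC)

theorem comm_coe {A C : SL32} (hc : C * A = A * C) : m2 C.1 A.1 = m2 A.1 C.1 :=
  (coe_mul C A).symm.trans ((congrArg (fun X : SL32 => (X.1 : M9)) hc).trans (coe_mul A C))

theorem mem_of_eq {A C : SL32} (h : (C.1 : M9) = A.1) : C ∈ Subgroup.zpowers A := by
  rw [(eq_iff C A).mpr h]
  exact Subgroup.mem_zpowers A

theorem mem_of_pw {A C : SL32} (n : ℕ) (h : (C.1 : M9) = pw A.1 n) : C ∈ Subgroup.zpowers A := by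
  rw [(eq_iff C (A ^ n)).mpr (h.trans (coe_pow A n).symm)]
  exact Subgroup.npow_mem_zpowers A n

theorem cent_three {A C : SL32} (h : orderOf A = 3) (hc : C * A = A * C) :
    C ∈ Subgroup.zpowers A := by
  rcases all9_elim (all9_elim cent3 A (ne_of_orderOf h (by decide)) (pw_of_orderOf h)) C
    (comm_coe hc) with h1 | h1 | h1
  · exact mem_of_pw 0 h1
  · exact mem_of_eq h1
  · exact mem_of_pw 2 h1

theorem cent_four {A C : SL32} (h : orderOf A = 4) (hc : C * A = A * C) :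
    C ∈ Subgroup.zpowers A := by
  rcases all9_elim (all9_elim cent4 A (sq_ne_of_orderOf h) (pw_of_orderOf h)) C
    (comm_coe hc) with h1 | h1 | h1 | h1
  · exact mem_of_pw 0 h1
  · exact mem_of_eq h1
  · exact mem_of_pw 2 h1
  · exact mem_of_pw 3 h1

theorem cent_seven {A C : SL32} (h : orderOf A = 7) (hc : C * A = A * C) :
    C ∈ Subgroup.zpowers A := by
  have h0 : inPow7 A.1 C.1 :=
    all9_elim (all9_elim cent7 A (ne_of_orderOf h (by decide)) (pw_of_orderOf h)) C (comm_coe hc)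
  unfold inPow7 at h0
  rcases h0 with h1 | h1 | h1 | h1 | h1 | h1 | h1
  · exact mem_of_pw 0 h1
  · exact mem_of_eq h1
  · exact mem_of_pw 2 h1
  · exact mem_of_pw 3 h1
  · exact mem_of_pw 4 h1
  · exact mem_of_pw 5 h1
  · exact mem_of_pw 6 h1

theorem not_conj_inv {A : SL32} (h : orderOf A = 7) : ¬ IsConj A A⁻¹ := by
  intro hc
  rw [isConj_iff] at hc
  obtain ⟨C, hC⟩ := hc
  have h0 : C * A = A⁻¹ * C := by
    rw [← hC, inv_mul_cancel_right]
  have h1 : A * (C * A) = C := by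
    rw [h0, mul_inv_cancel_left]
  exact all9_elim (all9_elim nc7 A (ne_of_orderOf h (by decide)) (pw_of_orderOf h)) C
    ((congrArg (m2 A.1) (coe_mul C A)).symm.trans ((coe_mul A (C * A)).symm.trans
      (congrArg (fun X : SL32 => (X.1 : M9)) h1)))

/-! ### Transfer to a group isomorphic to it -/

theorem isConj_inv' {G : Type*} [Group G] {a b : G} (h : IsConj a b) : IsConj a⁻¹ b⁻¹ := by
  rw [isConj_iff] at h ⊢
  obtain ⟨c, hc⟩ := h
  exact ⟨c, by rw [← hc]; group⟩

section Transfer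

variable {G : Type*} [Group G] (e : G ≃* SL32)

include e

theorem t_orders (g : G) :
    orderOf g = 1 ∨ orderOf g = 2 ∨ orderOf g = 3 ∨ orderOf g = 4 ∨ orderOf g = 7 := by
  rw [← MulEquiv.orderOf_eq e g]
  exact orderOf_cases (e g)

theorem t_ord {g : G} {n : ℕ} (h : orderOf g = n) : orderOf (e g) = n := by
  rw [MulEquiv.orderOf_eq]
  exact h

theorem t_conj_of {s t : G} (h : IsConj (e s) (e t)) : IsConj s t := by
  have h1 := (e.symm.toMonoidHom).map_isConj h
  simpa using h1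

theorem t_conj_to {s t : G} (h : IsConj s t) : IsConj (e s) (e t) :=
  (e.toMonoidHom).map_isConj h

theorem t_conj2 {s t : G} (hs : orderOf s = 2) (ht : orderOf t = 2) : IsConj s t :=
  t_conj_of e ((conj_two (t_ord e hs)).trans (conj_two (t_ord e ht)).symm)

theorem t_conj3 {s t : G} (hs : orderOf s = 3) (ht : orderOf t = 3) : IsConj s t :=
  t_conj_of e ((conj_three (t_ord e hs)).trans (conj_three (t_ord e ht)).symm)

theorem t_conj4 {s t : G} (hs : orderOf s = 4) (ht : orderOf t = 4) : IsConj s t :=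
  t_conj_of e ((conj_four (t_ord e hs)).trans (conj_four (t_ord e ht)).symm)

theorem t_conj7 {x y : G} (hx : orderOf x = 7) (hy : orderOf y = 7) :
    IsConj x y ∨ IsConj x⁻¹ y := by
  have hinv : e x⁻¹ = (e x)⁻¹ := map_inv e x
  have hr : r7i⁻¹ = r7 := by rw [r7i_eq, inv_inv]
  rcases conj_seven (t_ord e hx) with h1 | h1 <;> rcases conj_seven (t_ord e hy) with h2 | h2
  · exact Or.inl (t_conj_of e (h1.trans h2.symm))
  · refine Or.inr (t_conj_of e ?_)
    rw [hinv]
    have h3 := isConj_inv' h1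
    rw [← r7i_eq] at h3
    exact h3.trans h2.symm
  · refine Or.inr (t_conj_of e ?_)
    rw [hinv]
    have h3 := isConj_inv' h1
    rw [hr] at h3
    exact h3.trans h2.symm
  · exact Or.inl (t_conj_of e (h1.trans h2.symm))

theorem t_nc7 {x : G} (hx : orderOf x = 7) : ¬ IsConj x x⁻¹ := by
  intro h
  have h1 := t_conj_to e h
  rw [map_inv] at h1
  exact not_conj_inv (t_ord e hx) h1

theorem t_mem_zpowers {a c : G} (h : e c ∈ Subgroup.zpowers (e a)) : c ∈ Subgroup.zpowers a := by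
  obtain ⟨k, hk⟩ := Subgroup.mem_zpowers_iff.mp h
  refine Subgroup.mem_zpowers_iff.mpr ⟨k, e.injective ?_⟩
  rw [map_zpow]
  exact hk

theorem t_cent {a c : G} (ha : orderOf a = 3 ∨ orderOf a = 4 ∨ orderOf a = 7)
    (hc : c * a = a * c) : c ∈ Subgroup.zpowers a := by
  have hc' : e c * e a = e a * e c := by rw [← map_mul, ← map_mul, hc]
  rcases ha with h | h | h
  · exact t_mem_zpowers e (cent_three (t_ord e h) hc')
  · exact t_mem_zpowers e (cent_four (t_ord e h) hc')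
  · exact t_mem_zpowers e (cent_seven (t_ord e h) hc')

theorem t_exists4 : ∃ g : G, orderOf g = 4 :=
  ⟨e.symm r4, by rw [MulEquiv.orderOf_eq]; exact orderOf_r4⟩

end Transfer

end Cfsg.Agent.Lib.Helper2.L27Cls
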