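import Mathlib
import Cfsg.Agent.Lib.Helper2.SLGen
import Cfsg.Agent.Lib.Helper2.U33Emb
import Cfsg.Agent.Lib.Helper2.L27Data

set_option autoImplicit false

namespace Cfsg.Agent.Lib.Helper2.L27Data

open Cfsg.Agent.Lib.Helper2.U33Tab (mk9 d3 ra I9 SL32 mk9_eta d3_eq_det one_eq_I9 tv_eq_ra
  tv_eq_ra_I9)

/-- The image, as an endomorphism of the eight points. -/
def FM (M : Matrix (Fin 3) (Fin 3) (ZMod 2)) : Function.End (Fin 8) := Fm M

theorem FM_apply (M : Matrix (Fin 3) (Fin 3) (ZMod 2)) (x : Fin 8) : FM M x = Fm M x := rfl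

theorem FM_one : FM 1 = 1 := by
  funext x
  have h : (Fm (1 : Matrix (Fin 3) (Fin 3) (ZMod 2)) : Fin 8 → Fin 8) = Fm I9 :=
    congrArg Fm one_eq_I9
  exact (congrFun h x).trans (t_one x)

theorem FM_tv_mul {i j : Fin 3} (hij : i ≠ j) (B : Matrix (Fin 3) (Fin 3) (ZMod 2))
    (hB : B.det = 1) :
    FM (Matrix.transvection i j 1 * B) = FM (Matrix.transvection i j 1) * FM B := by
  funext x
  have h := t_mul i j hij (B 0 0) (B 0 1) (B 0 2) (B 1 0) (B 1 1) (B 1 2) (B 2 0) (B 2 1) (B 2 2)
    (by rw [d3_eq_det]; exact hB) x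
  rw [mk9_eta B] at h
  have h1 : Fm (Matrix.transvection i j 1 * B) x = Fm (ra i j B) x :=
    congrFun (congrArg Fm (tv_eq_ra i j B)) x
  have h2 : Fm (ra i j I9) = Fm (Matrix.transvection i j 1) :=
    (congrArg Fm (tv_eq_ra_I9 i j)).symm
  exact h1.trans (h.trans (congrFun h2 (Fm B x)))

/-- The table is multiplicative. -/
theorem key (A : SL32) : ∀ B : SL32, FM (A * B).1 = FM A.1 * FM B.1 := by
  refine Cfsg.Agent.Lib.Helper2.SLGen.transvection_induction
    (fun A : SL32 => ∀ B : SL32, FM (A * B).1 = FM A.1 * FM B.1) ?_ ?_ A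
  · intro i j hij c B
    have hc : c = 0 ∨ c = 1 := by
      revert c
      decide
    rcases hc with rfl | rfl
    · rw [Matrix.SpecialLinearGroup.transvection_coeff_zero, one_mul,
        Matrix.SpecialLinearGroup.coe_one, FM_one, one_mul]
    · have hT : ((Matrix.SpecialLinearGroup.transvection hij (1 : ZMod 2) : SL32).1 :
          Matrix (Fin 3) (Fin 3) (ZMod 2)) = Matrix.transvection i j 1 := rfl
      rw [Matrix.SpecialLinearGroup.coe_mul, hT]
      exact FM_tv_mul hij B.1 B.2
  · intro A B hA hB C
    rw [mul_assoc, hA (B * C), hB C, hA B, mul_assoc]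

/-- The homomorphism to the endomorphisms of the eight points. -/
def jEnd : SL32 →* Function.End (Fin 8) where
  toFun A := FM A.1
  map_one' := by
    show FM (1 : SL32).1 = 1
    rw [Matrix.SpecialLinearGroup.coe_one, FM_one]
  map_mul' A B := key A B

/-- The homomorphism to the permutations of the eight points. -/
def jPerm : SL32 →* Equiv.Perm (Fin 8) :=
  (Equiv.Perm.equivUnitsEnd (α := Fin 8)).symm.toMonoidHom.comp jEnd.toHomUnits

theorem jPerm_apply (A : SL32) (x : Fin 8) : jPerm A x = Fm A.1 x := rfl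

theorem jPerm_injective : Function.Injective jPerm := by
  rw [injective_iff_map_eq_one]
  intro A hA
  have h1 := t_inj (A.1 0 0) (A.1 0 1) (A.1 0 2) (A.1 1 0) (A.1 1 1) (A.1 1 2) (A.1 2 0) (A.1 2 1)
    (A.1 2 2) (by rw [d3_eq_det]; exact A.2)
  rw [mk9_eta A.1] at h1
  have h2 : ∀ x : Fin 8, Fm A.1 x = x := by
    intro x
    rw [← jPerm_apply, hA]
    rfl
  exact Subtype.ext ((h1 h2).trans one_eq_I9.symm)

theorem jPerm_tv (i j : Fin 3) (hij : i ≠ j) (x : Fin 8) :
    jPerm (Matrix.SpecialLinearGroup.transvection hij (1 : ZMod 2)) x = Fm (ra i j I9) x :=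
  congrFun (congrArg Fm (tv_eq_ra_I9 i j)) x

/-- The image lies in every subgroup containing the three standard permutations. -/
theorem jPerm_range_le (R : Subgroup (Equiv.Perm (Fin 8))) (hs : sg ∈ R) (ha : ta ∈ R)
    (ht : t3 ∈ R) : jPerm.range ≤ R := by
  rintro _ ⟨A, rfl⟩
  refine Cfsg.Agent.Lib.Helper2.SLGen.transvection_induction
    (fun A : SL32 => jPerm A ∈ R) ?_ ?_ A
  · intro i j hij c
    have hc : c = 0 ∨ c = 1 := by
      revert c
      decide
    rcases hc with rfl | rfl
    · rw [Matrix.SpecialLinearGroup.transvection_coeff_zero, map_one]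
      exact R.one_mem
    · have h01 : jPerm (Matrix.SpecialLinearGroup.transvection (i := (0 : Fin 3)) (j := 1)
          (by decide) (1 : ZMod 2)) ∈ R := by
        have e : jPerm (Matrix.SpecialLinearGroup.transvection (i := (0 : Fin 3)) (j := 1)
            (by decide) (1 : ZMod 2)) = ta * sg * ta * sg * t3 * sg :=
          Equiv.ext fun x => (jPerm_tv 0 1 (by decide) x).trans (w01 x)
        rw [e]
        exact R.mul_mem (R.mul_mem (R.mul_mem (R.mul_mem (R.mul_mem ha hs) ha) hs) ht) hs
      have h02 : jPerm (Matrix.SpecialLinearGroup.transvection (i := (0 : Fin 3)) (j := 2)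
          (by decide) (1 : ZMod 2)) ∈ R := by
        have e : jPerm (Matrix.SpecialLinearGroup.transvection (i := (0 : Fin 3)) (j := 2)
            (by decide) (1 : ZMod 2)) = t3 :=
          Equiv.ext fun x => (jPerm_tv 0 2 (by decide) x).trans (w02 x)
        rw [e]
        exact ht
      have h10 : jPerm (Matrix.SpecialLinearGroup.transvection (i := (1 : Fin 3)) (j := 0)
          (by decide) (1 : ZMod 2)) ∈ R := by
        have e : jPerm (Matrix.SpecialLinearGroup.transvection (i := (1 : Fin 3)) (j := 0)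
            (by decide) (1 : ZMod 2)) = ta * sg * t3 * sg * ta * sg :=
          Equiv.ext fun x => (jPerm_tv 1 0 (by decide) x).trans (w10 x)
        rw [e]
        exact R.mul_mem (R.mul_mem (R.mul_mem (R.mul_mem (R.mul_mem ha hs) ht) hs) ha) hs
      have h12 : jPerm (Matrix.SpecialLinearGroup.transvection (i := (1 : Fin 3)) (j := 2)
          (by decide) (1 : ZMod 2)) ∈ R := by
        have e : jPerm (Matrix.SpecialLinearGroup.transvection (i := (1 : Fin 3)) (j := 2)
            (by decide) (1 : ZMod 2)) = sg * t3 * sg * ta * sg * sg :=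
          Equiv.ext fun x => (jPerm_tv 1 2 (by decide) x).trans (w12 x)
        rw [e]
        exact R.mul_mem (R.mul_mem (R.mul_mem (R.mul_mem (R.mul_mem hs ht) hs) ha) hs) hs
      have h20 : jPerm (Matrix.SpecialLinearGroup.transvection (i := (2 : Fin 3)) (j := 0)
          (by decide) (1 : ZMod 2)) ∈ R := by
        have e : jPerm (Matrix.SpecialLinearGroup.transvection (i := (2 : Fin 3)) (j := 0)
            (by decide) (1 : ZMod 2)) = t3 * sg * t3 * sg :=
          Equiv.ext fun x => (jPerm_tv 2 0 (by decide) x).trans (w20 x)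
        rw [e]
        exact R.mul_mem (R.mul_mem (R.mul_mem ht hs) ht) hs
      have h21 : jPerm (Matrix.SpecialLinearGroup.transvection (i := (2 : Fin 3)) (j := 1)
          (by decide) (1 : ZMod 2)) ∈ R := by
        have e : jPerm (Matrix.SpecialLinearGroup.transvection (i := (2 : Fin 3)) (j := 1)
            (by decide) (1 : ZMod 2)) = sg * t3 * sg * ta * sg * ta :=
          Equiv.ext fun x => (jPerm_tv 2 1 (by decide) x).trans (w21 x)
        rw [e]
        exact R.mul_mem (R.mul_mem (R.mul_mem (R.mul_mem (R.mul_mem hs ht) hs) ha) hs) ha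
      have hall : ∀ (i j : Fin 3) (hij : i ≠ j),
          jPerm (Matrix.SpecialLinearGroup.transvection hij (1 : ZMod 2)) ∈ R := by
        intro i j hij
        fin_cases i <;> fin_cases j
        · exact absurd rfl hij
        · exact h01
        · exact h02
        · exact h10
        · exact absurd rfl hij
        · exact h12
        · exact h20
        · exact h21
        · exact absurd rfl hij
      exact hall i j hij
  · intro A B hA hB
    rw [map_mul]
    exact R.mul_mem hA hB

end Cfsg.Agent.Lib.Helper2.L27Data
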