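import Mathlib
import Cfsg.Agent.S0495
import Cfsg.Agent.Lib.Helper2.L27Br
import Cfsg.Agent.Lib.Helper2.L27Abs

set_option autoImplicit false

namespace Cfsg.Agent.Lib.Helper2.L27Cls

open Cfsg.Agent.Lib.Helper2.U33Tab (SL32 center_SL32)

/-- A simple group of order 168 is the group of invertible matrices of size three over two
elements. -/
theorem exists_equiv {G : Type*} [Group G] [Finite G] [IsSimpleGroup G]
    (h : Nat.card G = 168) : Nonempty (G ≃* SL32) := by
  haveI : Fact (Nat.Prime 7) := ⟨by norm_num⟩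
  obtain ⟨e0⟩ := Cfsg.Agent.S0495.result h (F := ZMod 7) (ZMod.card 7)
  obtain ⟨e1⟩ := Cfsg.Agent.Lib.Helper2.Fano7.main7 (F := ZMod 7) (K := ZMod 2) (ZMod.card 7)
    (ZMod.card 2)
  exact ⟨e0.trans (e1.trans ((QuotientGroup.quotientMulEquivOfEq center_SL32).trans
    QuotientGroup.quotientBot))⟩

/-- The counts of elements by order in a group isomorphic to it. -/
theorem t_counts {G : Type*} [Group G] [Finite G] (e : G ≃* SL32) (h : Nat.card G = 168) :
    Nat.card {g : G // orderOf g = 2} = 21 ∧ Nat.card {g : G // orderOf g = 3} = 56 ∧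
      Nat.card {g : G // orderOf g = 4} = 42 ∧ Nat.card {g : G // orderOf g = 7} = 48 ∧
      ∀ x : G, orderOf x = 7 → Nat.card {g : G // IsConj x g} = 24 :=
  Cfsg.Agent.Lib.Helper2.L27Abs.counts h (t_orders e) (fun _ _ hs ht => t_conj3 e hs ht)
    (fun _ _ hs ht => t_conj4 e hs ht) (fun _ _ ha hc => t_cent e ha hc)
    (fun _ _ hx hy => t_conj7 e hx hy) (fun _ hx => t_nc7 e hx) (t_exists4 e)

end Cfsg.Agent.Lib.Helper2.L27Cls
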