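import Mathlib
import Cfsg.Agent.S0243

set_option autoImplicit false

namespace Cfsg.Agent.Lib.Helper2.Subfield2

open scoped Matrix

theorem exists_emb {F K : Type*} [Field F] [Fintype F] [Field K] [Fintype K] (m : ℕ) (hm : 1 ≤ m)
    (h : Fintype.card K ^ m = Fintype.card F) : Nonempty (K →+* F) := by
  obtain ⟨p, hp⟩ := CharP.exists K
  haveI : Fact p.Prime := ⟨CharP.char_is_prime K p⟩
  haveI : NeZero m := ⟨by omega⟩
  haveI : Fintype (FiniteField.Extension K p m) := Fintype.ofFinite _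
  have hc : Fintype.card (FiniteField.Extension K p m) = Fintype.card F := by
    rw [Fintype.card_eq_nat_card, FiniteField.natCard_extension, Nat.card_eq_fintype_card, h]
  exact ⟨(FiniteField.ringEquivOfCardEq hc).toRingHom.comp
    (algebraMap K (FiniteField.Extension K p m))⟩

section maps

variable {F K : Type*} [Field F] [Field K] (φ : K →+* F)

/-- Two elements of `SL` differing by a scalar have the same image in `PSL`. -/
theorem mk_eq_of_smul (A B : Matrix.SpecialLinearGroup (Fin 2) F) (c : F)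
    (h : A.1 = c • B.1) :
    (QuotientGroup.mk A : Matrix.ProjectiveSpecialLinearGroup (Fin 2) F) = QuotientGroup.mk B := by
  rw [QuotientGroup.eq, Matrix.SpecialLinearGroup.mem_center_iff]
  have h1 : (A⁻¹ * B).1 * (c • (1 : Matrix (Fin 2) (Fin 2) F)) = 1 := by
    have h2 : (A⁻¹ * B).1 * (c • (1 : Matrix (Fin 2) (Fin 2) F)) = (A⁻¹).1 * (c • B.1) := by
      rw [Matrix.SpecialLinearGroup.coe_mul, Matrix.mul_smul, Matrix.mul_one, Matrix.mul_smul]
    rw [h2, ← h, ← Matrix.SpecialLinearGroup.coe_mul, inv_mul_cancel,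
      Matrix.SpecialLinearGroup.coe_one]
  have hdet := congrArg Matrix.det h1
  rw [Matrix.det_mul, (A⁻¹ * B).2, one_mul, Matrix.det_smul, Matrix.det_one, Fintype.card_fin,
    mul_one] at hdet
  have hc0 : c ≠ 0 := by
    rintro rfl
    simp at hdet
  have hc2 : c⁻¹ ^ 2 = 1 := by
    rw [inv_pow, hdet, inv_one]
  refine ⟨c⁻¹, by rw [Fintype.card_fin]; exact hc2, ?_⟩
  have h3 : (A⁻¹ * B).1 = c⁻¹ • (1 : Matrix (Fin 2) (Fin 2) F) := by
    have h4 : (A⁻¹ * B).1 * (c • (1 : Matrix (Fin 2) (Fin 2) F)) * (c⁻¹ • (1 : Matrix (Fin 2) (Fin 2) F))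
        = (A⁻¹ * B).1 := by
      rw [Matrix.mul_assoc, Matrix.smul_mul, Matrix.one_mul, smul_smul, mul_inv_cancel₀ hc0,
        one_smul, Matrix.mul_one]
    rw [← h4, h1, Matrix.one_mul]
  rw [h3, Matrix.scalar_apply, ← Matrix.smul_one_eq_diagonal]

/-- Base change followed by the projection. -/
def slMap : Matrix.SpecialLinearGroup (Fin 2) K →*
    Matrix.ProjectiveSpecialLinearGroup (Fin 2) F :=
  (QuotientGroup.mk' _).comp (Matrix.SpecialLinearGroup.map φ)

theorem scalar_of_map (M : Matrix (Fin 2) (Fin 2) K) (c : F)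
    (h : M.map φ = c • (1 : Matrix (Fin 2) (Fin 2) F)) :
    M = (M 0 0) • (1 : Matrix (Fin 2) (Fin 2) K) := by
  have e01 := congrFun (congrFun h 0) 1
  have e10 := congrFun (congrFun h 1) 0
  have e00 := congrFun (congrFun h 0) 0
  have e11 := congrFun (congrFun h 1) 1
  simp at e00 e01 e10 e11
  have h11 : M 1 1 = M 0 0 := φ.injective (by rw [e11, e00])
  ext i j
  fin_cases i <;> fin_cases j <;> simp [e01, e10, h11]

theorem slMap_eq_one_iff (g : Matrix.SpecialLinearGroup (Fin 2) K) :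
    slMap φ g = 1 ↔ g ∈ Subgroup.center (Matrix.SpecialLinearGroup (Fin 2) K) := by
  have hdet : g.1 0 0 * g.1 1 1 - g.1 0 1 * g.1 1 0 = 1 := by
    rw [← Matrix.det_fin_two]
    exact g.2
  constructor
  · intro h
    have h1 : Matrix.SpecialLinearGroup.map φ g
        ∈ Subgroup.center (Matrix.SpecialLinearGroup (Fin 2) F) :=
      (QuotientGroup.eq_one_iff _).mp h
    obtain ⟨c, -, hc⟩ := Matrix.SpecialLinearGroup.mem_center_iff.mp h1
    have h2 : g.1.map φ = c • (1 : Matrix (Fin 2) (Fin 2) F) := by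
      rw [Matrix.scalar_apply, ← Matrix.smul_one_eq_diagonal] at hc
      rw [hc]
      rfl
    have h3 := scalar_of_map φ g.1 c h2
    rw [Matrix.SpecialLinearGroup.mem_center_iff]
    refine ⟨g.1 0 0, ?_, ?_⟩
    · have e01 := congrFun (congrFun h3 0) 1
      have e11 := congrFun (congrFun h3 1) 1
      simp at e01 e11
      rw [e01, e11] at hdet
      rw [Fintype.card_fin]
      linear_combination hdet
    · rw [Matrix.scalar_apply, ← Matrix.smul_one_eq_diagonal]
      exact h3.symm
  · intro h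
    obtain ⟨c, hc, hg⟩ := Matrix.SpecialLinearGroup.mem_center_iff.mp h
    apply (QuotientGroup.eq_one_iff _).mpr
    rw [Matrix.SpecialLinearGroup.mem_center_iff]
    refine ⟨φ c, by rw [← map_pow, hc, map_one], ?_⟩
    show Matrix.scalar (Fin 2) (φ c) = g.1.map φ
    rw [← hg, Matrix.scalar_apply, Matrix.scalar_apply, Matrix.diagonal_map (map_zero _)]

/-- The induced map on `PSL₂`. -/
def pslMap : Matrix.ProjectiveSpecialLinearGroup (Fin 2) K →*
    Matrix.ProjectiveSpecialLinearGroup (Fin 2) F :=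
  QuotientGroup.lift _ (slMap φ) (fun g hg => (slMap_eq_one_iff φ g).mpr hg)

theorem pslMap_injective : Function.Injective (pslMap φ) := by
  rw [injective_iff_map_eq_one]
  intro x hx
  induction x using QuotientGroup.induction_on with
  | H g =>
    have h1 : slMap φ g = 1 := hx
    exact (QuotientGroup.eq_one_iff g).mpr ((slMap_eq_one_iff φ g).mp h1)

section gl

variable (hsq : ∀ x : K, ∃ s : F, s * s = φ x)

/-- A chosen square root. -/
noncomputable def rt (x : K) : F := Classical.choose (hsq x)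

theorem rt_sq (x : K) : rt φ hsq x * rt φ hsq x = φ x := Classical.choose_spec (hsq x)

theorem rt_ne (x : K) (hx : x ≠ 0) : rt φ hsq x ≠ 0 := by
  intro h
  have h1 := rt_sq φ hsq x
  rw [h, mul_zero] at h1
  exact hx (φ.injective (by rw [← h1, map_zero]))

/-- The normalised matrix. -/
noncomputable def nrm (g : Matrix.GeneralLinearGroup (Fin 2) K) :
    Matrix.SpecialLinearGroup (Fin 2) F :=
  ⟨(rt φ hsq g.1.det)⁻¹ • (g.1.map φ), by
    have h0 : g.1.det ≠ 0 := by
      have := Matrix.GeneralLinearGroup.det_ne_zero g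
      exact this
    have h1 := rt_ne φ hsq _ h0
    have h2 : (g.1.map φ).det = φ g.1.det := (RingHom.map_det φ g.1).symm
    rw [Matrix.det_smul, Fintype.card_fin, h2, ← rt_sq φ hsq]
    field_simp⟩

theorem nrm_val (g : Matrix.GeneralLinearGroup (Fin 2) K) :
    (nrm φ hsq g).1 = (rt φ hsq g.1.det)⁻¹ • (g.1.map φ) := rfl

/-- The map from `GL₂` of the small field to `PSL₂` of the big field. -/
noncomputable def glMap : Matrix.GeneralLinearGroup (Fin 2) K →*
    Matrix.ProjectiveSpecialLinearGroup (Fin 2) F where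
  toFun g := QuotientGroup.mk (nrm φ hsq g)
  map_one' := by
    apply mk_eq_of_smul _ _ ((rt φ hsq (1 : Matrix.GeneralLinearGroup (Fin 2) K).1.det)⁻¹)
    rw [nrm_val]
    simp
  map_mul' g h := by
    have hg0 : g.1.det ≠ 0 := Matrix.GeneralLinearGroup.det_ne_zero g
    have hh0 : h.1.det ≠ 0 := Matrix.GeneralLinearGroup.det_ne_zero h
    have h1 := rt_ne φ hsq _ hg0
    have h2 := rt_ne φ hsq _ hh0
    rw [← QuotientGroup.mk_mul]
    apply mk_eq_of_smul _ _ ((rt φ hsq (g * h).1.det)⁻¹ * rt φ hsq g.1.det * rt φ hsq h.1.det)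
    rw [Matrix.SpecialLinearGroup.coe_mul, nrm_val, nrm_val, nrm_val, Matrix.smul_mul,
      Matrix.mul_smul, smul_smul, smul_smul]
    have h3 : (g * h).1.map φ = g.1.map φ * h.1.map φ := by
      rw [← Matrix.map_mul]
      rfl
    rw [h3]
    congr 1
    field_simp

theorem glMap_eq_one_iff (g : Matrix.GeneralLinearGroup (Fin 2) K) :
    glMap φ hsq g = 1 ↔ g ∈ Subgroup.center (Matrix.GeneralLinearGroup (Fin 2) K) := by
  have hg0 : g.1.det ≠ 0 := Matrix.GeneralLinearGroup.det_ne_zero g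
  have h1 := rt_ne φ hsq _ hg0
  rw [Matrix.GeneralLinearGroup.mem_center_iff_val_mem_range_scalar]
  constructor
  · intro h
    have h2 : nrm φ hsq g ∈ Subgroup.center (Matrix.SpecialLinearGroup (Fin 2) F) :=
      (QuotientGroup.eq_one_iff _).mp h
    obtain ⟨c, -, hc⟩ := Matrix.SpecialLinearGroup.mem_center_iff.mp h2
    rw [Matrix.scalar_apply, ← Matrix.smul_one_eq_diagonal, nrm_val] at hc
    have h3 : g.1.map φ = (rt φ hsq g.1.det * c) • (1 : Matrix (Fin 2) (Fin 2) F) := by
      rw [mul_smul, hc, smul_smul, mul_inv_cancel₀ h1, one_smul]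
    have h4 := scalar_of_map φ g.1 _ h3
    refine ⟨g.1 0 0, ?_⟩
    rw [Matrix.scalar_apply, ← Matrix.smul_one_eq_diagonal]
    exact h4.symm
  · rintro ⟨a, ha⟩
    rw [Matrix.scalar_apply, ← Matrix.smul_one_eq_diagonal] at ha
    have h5 : (QuotientGroup.mk (nrm φ hsq g) : Matrix.ProjectiveSpecialLinearGroup (Fin 2) F)
        = QuotientGroup.mk (1 : Matrix.SpecialLinearGroup (Fin 2) F) := by
      apply mk_eq_of_smul _ _ ((rt φ hsq g.1.det)⁻¹ * φ a)
      rw [nrm_val, ← ha, Matrix.SpecialLinearGroup.coe_one, mul_smul]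
      congr 1
      ext i j
      fin_cases i <;> fin_cases j <;> simp
    exact h5

/-- The induced map on `PGL₂`. -/
noncomputable def pglMap : Matrix.ProjGenLinGroup (Fin 2) K →*
    Matrix.ProjectiveSpecialLinearGroup (Fin 2) F :=
  QuotientGroup.lift (Subgroup.center (Matrix.GeneralLinearGroup (Fin 2) K)) (glMap φ hsq)
    (fun g hg => (glMap_eq_one_iff φ hsq g).mpr hg)

theorem pglMap_injective : Function.Injective (pglMap φ hsq) := by
  rw [injective_iff_map_eq_one]
  intro x hx
  obtain ⟨g, rfl⟩ := Matrix.ProjGenLinGroup.mk_surjective x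
  have h1 : glMap φ hsq g = 1 := hx
  exact Matrix.ProjGenLinGroup.mk_eq_one.mpr ((glMap_eq_one_iff φ hsq g).mp h1)

end gl

end maps

section fin

variable {F K : Type*} [Field F] [Fintype F] [Field K] [Fintype K]

theorem odd_card_of_pow (m : ℕ) (hm : 1 ≤ m) (hK : Fintype.card K ^ m = Fintype.card F)
    (hodd : Odd (Fintype.card F)) : Odd (Fintype.card K) := by
  by_contra h
  have h1 : Even (Fintype.card K) := Nat.not_odd_iff_even.mp h
  have h2 : Even (Fintype.card K ^ m) := h1.pow_of_ne_zero (by omega)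
  rw [hK] at h2
  exact (Nat.not_even_iff_odd.mpr hodd) h2

theorem all_sq (φ : K →+* F) (hodd : Odd (Fintype.card F)) (m : ℕ) (hm : 1 ≤ m) (hev : Even m)
    (hK : Fintype.card K ^ m = Fintype.card F) : ∀ x : K, ∃ s : F, s * s = φ x := by
  intro x
  by_cases hx : x = 0
  · exact ⟨0, by rw [hx, map_zero, mul_zero]⟩
  have hy : φ x ≠ 0 := fun h => hx (φ.injective (by rw [h, map_zero]))
  have hch : ringChar F ≠ 2 := by
    intro h
    have h1 := FiniteField.even_card_of_char_two h
    rcases hodd with ⟨t, ht⟩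
    omega
  have h1 : x ^ (Fintype.card K - 1) = 1 := FiniteField.pow_card_sub_one_eq_one x hx
  have h2 : (φ x) ^ (Fintype.card K - 1) = 1 := by rw [← map_pow, h1, map_one]
  have hrodd := odd_card_of_pow m hm hK hodd
  obtain ⟨k, rfl⟩ := hev
  have hr1 : 1 ≤ Fintype.card K := Fintype.card_pos
  have hg := geom_sum_mul_add (Fintype.card K ^ 2 - 1) k
  have hr2 : Fintype.card K ^ 2 - 1 + 1 = Fintype.card K ^ 2 :=
    Nat.sub_add_cancel (Nat.one_le_pow _ _ hr1)
  rw [hr2] at hg
  have hq : Fintype.card F = (Fintype.card K ^ 2) ^ k := by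
    rw [← hK, ← two_mul, pow_mul]
  obtain ⟨u, hu⟩ := hrodd
  have hfac : Fintype.card K ^ 2 - 1 = (Fintype.card K - 1) * (2 * (u + 1)) := by
    rw [hu]
    have h3 : (2 * u + 1) ^ 2 = 2 * u * (2 * (u + 1)) + 1 := by ring
    rw [h3]
    simp
  have hdiv : Fintype.card F / 2 = (Fintype.card K - 1)
      * ((u + 1) * ∑ i ∈ Finset.range k, (Fintype.card K ^ 2) ^ i) := by
    have h4 : Fintype.card F = 2 * ((Fintype.card K - 1)
        * ((u + 1) * ∑ i ∈ Finset.range k, (Fintype.card K ^ 2) ^ i)) + 1 := by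
      rw [hq, ← hg, hfac]
      ring
    omega
  have h3 : φ x ^ (Fintype.card F / 2) = 1 := by rw [hdiv, pow_mul, h2, one_pow]
  obtain ⟨s, hs⟩ := (FiniteField.isSquare_iff hch hy).mpr h3
  exact ⟨s, hs.symm⟩

omit [Field F] [Fintype F] in
theorem card_pgl : Nat.card (Matrix.ProjGenLinGroup (Fin 2) K)
    = Fintype.card K * (Fintype.card K ^ 2 - 1) := by
  have h1 : Nat.card (Matrix.GeneralLinearGroup (Fin 2) K)
      = Nat.card (Matrix.ProjGenLinGroup (Fin 2) K)
        * Nat.card ↥(Subgroup.center (Matrix.GeneralLinearGroup (Fin 2) K)) :=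
    Subgroup.card_eq_card_quotient_mul_card_subgroup _
  have h2 : Nat.card ↥(Subgroup.center (Matrix.GeneralLinearGroup (Fin 2) K))
      = Fintype.card K - 1 := by
    rw [Matrix.GeneralLinearGroup.center_eq_range_scalar]
    have hinj : Function.Injective (Matrix.GeneralLinearGroup.scalar (Fin 2) :
        Kˣ →* Matrix.GeneralLinearGroup (Fin 2) K) := by
      intro a b hab
      have h3 := congrArg (fun g : Matrix.GeneralLinearGroup (Fin 2) K => g.1 0 0) hab
      apply Units.ext
      simpa [Matrix.GeneralLinearGroup.scalar] using h3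
    rw [Nat.card_congr (MonoidHom.ofInjective hinj).symm.toEquiv, Nat.card_units,
      Nat.card_eq_fintype_card]
  have h3 := Matrix.card_GL_field (𝔽 := K) 2
  rw [Fin.prod_univ_two] at h3
  rw [h3, h2] at h1
  have hr1 : 2 ≤ Fintype.card K := Fintype.one_lt_card
  have h4 : Fintype.card K ^ 2 - Fintype.card K ^ ((1 : Fin 2) : ℕ)
      = Fintype.card K * (Fintype.card K - 1) := by
    rw [Nat.mul_sub, mul_one]
    simp [pow_two]
  have h5 : Fintype.card K ^ 2 - Fintype.card K ^ ((0 : Fin 2) : ℕ) = Fintype.card K ^ 2 - 1 := by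
    simp
  rw [h4, h5] at h1
  have h6 : (Fintype.card K * (Fintype.card K ^ 2 - 1)) * (Fintype.card K - 1)
      = Nat.card (Matrix.ProjGenLinGroup (Fin 2) K) * (Fintype.card K - 1) := by
    rw [← h1]
    ring
  exact (Nat.eq_of_mul_eq_mul_right (by omega) h6).symm

omit [Field K] [Fintype K] in
theorem card_psl2 (hodd : Odd (Fintype.card F)) :
    2 * Nat.card (Matrix.ProjectiveSpecialLinearGroup (Fin 2) F)
      = Fintype.card F * (Fintype.card F ^ 2 - 1) := by
  have h := Cfsg.Agent.S0243.result (F := F) rfl 2 (le_refl _)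
  rw [Fin.prod_univ_two] at h
  have hq2 : 2 ≤ Fintype.card F := Fintype.one_lt_card
  have hg : Nat.gcd 2 (Fintype.card F - 1) = 2 := by
    obtain ⟨t, ht⟩ := hodd
    rw [ht]
    simp
  rw [hg] at h
  have h4 : Fintype.card F ^ 2 - Fintype.card F ^ ((1 : Fin 2) : ℕ)
      = Fintype.card F * (Fintype.card F - 1) := by
    rw [Nat.mul_sub, mul_one]
    simp [pow_two]
  have h5 : Fintype.card F ^ 2 - Fintype.card F ^ ((0 : Fin 2) : ℕ) = Fintype.card F ^ 2 - 1 := by
    simp
  rw [h4, h5] at h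
  have h6 : (2 * Nat.card (Matrix.ProjectiveSpecialLinearGroup (Fin 2) F))
        * (Fintype.card F - 1)
      = (Fintype.card F * (Fintype.card F ^ 2 - 1)) * (Fintype.card F - 1) := by
    rw [← mul_assoc] at h
    calc (2 * Nat.card (Matrix.ProjectiveSpecialLinearGroup (Fin 2) F)) * (Fintype.card F - 1)
        = 2 * (Fintype.card F - 1) * Nat.card (Matrix.ProjectiveSpecialLinearGroup (Fin 2) F) := by
          ring
      _ = (Fintype.card F ^ 2 - 1) * (Fintype.card F * (Fintype.card F - 1)) := h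
      _ = _ := by ring
  exact Nat.eq_of_mul_eq_mul_right (by omega) h6

theorem even_of_sub (hodd : Odd (Fintype.card F)) (m : ℕ) (hm : 1 ≤ m)
    (hK : Fintype.card K ^ m = Fintype.card F)
    (H : Subgroup (Matrix.ProjectiveSpecialLinearGroup (Fin 2) F))
    (e : H ≃* Matrix.ProjGenLinGroup (Fin 2) K) : Even m := by
  by_contra hne
  have hmo : Odd m := Nat.not_even_iff_odd.mp hne
  have hrodd := odd_card_of_pow m hm hK hodd
  have hr2 : 2 ≤ Fintype.card K := Fintype.one_lt_card
  have hH : Nat.card H = Fintype.card K * (Fintype.card K ^ 2 - 1) :=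
    (Nat.card_congr e.toEquiv).trans card_pgl
  obtain ⟨t, ht⟩ := Subgroup.card_subgroup_dvd_card H
  have hP := card_psl2 (F := F) hodd
  have hg := geom_sum_mul_add (Fintype.card K ^ 2 - 1) m
  have hr2' : Fintype.card K ^ 2 - 1 + 1 = Fintype.card K ^ 2 :=
    Nat.sub_add_cancel (Nat.one_le_pow _ _ (by omega))
  rw [hr2'] at hg
  have hq2 : Fintype.card F ^ 2 - 1
      = (∑ i ∈ Finset.range m, (Fintype.card K ^ 2) ^ i) * (Fintype.card K ^ 2 - 1) := by
    have h1 : Fintype.card F ^ 2 = (Fintype.card K ^ 2) ^ m := by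
      rw [← hK, ← pow_mul, ← pow_mul, mul_comm]
    rw [h1, ← hg]
    simp
  have hS : Odd (∑ i ∈ Finset.range m, (Fintype.card K ^ 2) ^ i) := by
    rw [Finset.odd_sum_iff_odd_card_odd]
    have h1 : (Finset.range m).filter (fun i => Odd ((Fintype.card K ^ 2) ^ i))
        = Finset.range m :=
      Finset.filter_true_of_mem (fun i _ => (hrodd.pow).pow)
    rw [h1, Finset.card_range]
    exact hmo
  have hpos : 0 < Fintype.card K ^ 2 - 1 := by
    have : 2 ^ 2 ≤ Fintype.card K ^ 2 := Nat.pow_le_pow_left hr2 2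
    omega
  have h7 : (2 * (Fintype.card K * t)) * (Fintype.card K ^ 2 - 1)
      = (Fintype.card F * ∑ i ∈ Finset.range m, (Fintype.card K ^ 2) ^ i)
        * (Fintype.card K ^ 2 - 1) := by
    calc (2 * (Fintype.card K * t)) * (Fintype.card K ^ 2 - 1)
        = 2 * ((Fintype.card K * (Fintype.card K ^ 2 - 1)) * t) := by ring
      _ = 2 * Nat.card (Matrix.ProjectiveSpecialLinearGroup (Fin 2) F) := by rw [ht, hH]
      _ = Fintype.card F * (Fintype.card F ^ 2 - 1) := hP
      _ = _ := by rw [hq2]; ring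
  have h8 := Nat.eq_of_mul_eq_mul_right hpos h7
  have h9 : Odd (Fintype.card F * ∑ i ∈ Finset.range m, (Fintype.card K ^ 2) ^ i) :=
    hodd.mul hS
  rw [← h8] at h9
  exact (Nat.not_even_iff_odd.mpr h9) (even_two_mul _)

theorem main {q : ℕ} (hF : Fintype.card F = q) (hodd : Odd q) (m : ℕ) (hm : 1 ≤ m)
    (hK : Fintype.card K ^ m = q) :
    (∃ H : Subgroup (Matrix.ProjectiveSpecialLinearGroup (Fin 2) F),
      Nonempty (H ≃* Matrix.ProjectiveSpecialLinearGroup (Fin 2) K)) ∧
    ((∃ H : Subgroup (Matrix.ProjectiveSpecialLinearGroup (Fin 2) F),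
      Nonempty (H ≃* Matrix.ProjGenLinGroup (Fin 2) K)) ↔ Even m) := by
  subst hF
  obtain ⟨φ⟩ := exists_emb m hm hK
  refine ⟨⟨(pslMap φ).range, ⟨(MonoidHom.ofInjective (pslMap_injective φ)).symm⟩⟩, ?_, ?_⟩
  · rintro ⟨H, ⟨e⟩⟩
    exact even_of_sub hodd m hm hK H e
  · intro hev
    have hsq := all_sq φ hodd m hm hev hK
    exact ⟨(pglMap φ hsq).range, ⟨(MonoidHom.ofInjective (pglMap_injective φ hsq)).symm⟩⟩

end fin

end Cfsg.Agent.Lib.Helper2.Subfield2
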